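import Cfsg.Agent.CosetEnum.Step
import Cfsg.Agent.CosetEnum.M83.H1P0
import Cfsg.Agent.CosetEnum.M83.H2P0
import Cfsg.Agent.CosetEnum.M83.H3P0
import Cfsg.Agent.CosetEnum.M83.JP0
import Cfsg.Agent.CosetEnum.M83.JP1
import Cfsg.Agent.CosetEnum.M83.JP2
import Cfsg.Agent.CosetEnum.M83.JP3

/-! Certificates of coset enumerations and tables (generated, owner: helper28). -/

set_option autoImplicit false
set_option maxRecDepth 1000000

namespace Cfsg.Agent.CosetEnum.M83H1

theorem st : staticOK 2 iv (RL.map expand) subs P L = true := by decide +kernel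

theorem seg : Seg P L P.m 10 :=
  (Seg.nil).snoc part0

theorem cert : Cert 2 iv RL subs 10 := fun g H hl hrels hsubs =>
  upper g H 2 iv hl (RL.map expand) subs hrels hsubs P L rfl st seg

end Cfsg.Agent.CosetEnum.M83H1
namespace Cfsg.Agent.CosetEnum.M83H2

theorem st : staticOK 4 iv (RL.map expand) subs P L = true := by decide +kernel

theorem seg : Seg P L P.m 108 :=
  (Seg.nil).snoc part0

theorem cert : Cert 4 iv RL subs 108 := fun g H hl hrels hsubs =>
  upper g H 4 iv hl (RL.map expand) subs hrels hsubs P L rfl st seg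

end Cfsg.Agent.CosetEnum.M83H2
namespace Cfsg.Agent.CosetEnum.M83H3

theorem st : staticOK 4 iv (RL.map expand) subs P L = true := by decide +kernel

theorem seg : Seg P L P.m 1 :=
  (Seg.nil).snoc part0

theorem cert : Cert 4 iv RL subs 1 := fun g H hl hrels hsubs =>
  upper g H 4 iv hl (RL.map expand) subs hrels hsubs P L rfl st seg

end Cfsg.Agent.CosetEnum.M83H3
namespace Cfsg.Agent.CosetEnum.M83J

theorem st : staticOK 8 iv (RL.map expand) subs P L = true := by decide +kernel

theorem seg : Seg P L P.m 1120 :=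
  ((((Seg.nil).snoc part0).snoc part1).snoc part2).snoc part3

theorem cert : Cert 8 iv RL subs 1120 := fun g H hl hrels hsubs =>
  upper g H 8 iv hl (RL.map expand) subs hrels hsubs P L rfl st seg

end Cfsg.Agent.CosetEnum.M83J
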