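import Cfsg.Agent.CosetEnum.M83.K5Data

/-! Certificate of a coset enumeration (generated data, owner: helper28). -/

set_option autoImplicit false
set_option maxRecDepth 1000000

namespace Cfsg.Agent.CosetEnum.M83K5

def ck0 : CK := .cons 32 32 0x20000400240020010008000020090001000800080040024002001000804400008004002011000802401200100090008004002011000900080040000020090001000100480040020010001 ( .cons 32 32 0x20010088004012009000000024000400440020002000240020110001200900080040020110008024012000200000120002002200100010008004800402201100090048004002001008800401200900010000008024000400240 ( .cons 32 32 0x800400240020022000240020090000200004012000200100010019008804400240120090008000800400201100080001004800880001000800480040044000480040120000400008024000400200020010088004000012001008800090001 ( .cons 32 32 0x4800402200024000402200100010001200100880009004800403201100012009000100010008004022000009001100002001000900080088000900080240000800012000200100010019008804400240120002000200100080440000100480088 ( .cons 32 32 0x110019000120002019001100090009000800080008044002000040120022001000004800402200024000402200004000480040000120010011000800090008004022003200024000403200220012001200100010001008800400008024004400200 ( .cons 32 32 0x100080440000120032011008800480240004000400200100880000200900022000048000804400640004800080640044002400240020002000201100080001004800880000048004000000402200004000480040000120010011000024002001 ( .cons 32 32 0x480048004022002200100110008000900080040000000100c804400048024000400040020010088000024006400440024000080008000804400001004800c800880048004800402200100880040044002000240020010000000040320110001200900010001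 ( .cons 32 32 0x44000090001008800c8000900010011000024002001008800c80009000100c8008800480048004022002200044002000240020010000000040320000480001000100010088000024006400440024000080008000804400001004800c80088 ( .cons 32 32 0x400440000900080040000000100c8000120000403201100880048024000400008000020010001000100110000240004022003200024000400440000900080040000000100c8044000480240004032011008800480240004000080000200100010001 ( .cons 32 32 0x64004400240024002011001100000400001000800002002200004800080088004000480008064004400240024002011001100190011000900090008044004400201900002400008064004400240000800010000040020002000200220000480008000 ( .cons 32 32 0x32000048000100c80088004800010000000040044002000240004032000048000100c800880048000100c800012000040320110088004802400040044000090001001100080009000100002000008004000000080000200100000400440000900010011000800090001 ( .cons 8 8 0x400008000004000000010011000800090001 ( .nil ))))))))))))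

theorem part0 : chunks P L 360 ck0 0 360 = true := by decide +kernel

end Cfsg.Agent.CosetEnum.M83K5
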