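import Cfsg.Agent.CosetEnum.M83.K6Data

/-! Certificate of a coset enumeration (generated data, owner: helper28). -/

set_option autoImplicit false
set_option maxRecDepth 1000000

namespace Cfsg.Agent.CosetEnum.M83K6

def ck0 : CK := .cons 7 7 0x19008804402201900880240120090008044022001004802401200100080040020040020010008004 ( .nil )

theorem part0 : chunks P L 7 ck0 0 7 = true := by decide +kernel

end Cfsg.Agent.CosetEnum.M83K6
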