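import Cfsg.Agent.CosetEnum.M83.K8Data

/-! Certificate of a coset enumeration (generated data, owner: helper28). -/

set_option autoImplicit false
set_option maxRecDepth 1000000

namespace Cfsg.Agent.CosetEnum.M83K8

def ck0 : CK := .cons 16 11 0x880640520090088064012009000670000aa0001c80003900000e40001c80000720aa0000f4001080040220110019014800010000a40210001200000100080240320210009080005500c8000890000550000240020110088044032009004802402200900080008024000400200100080100080040020010008004 ( .nil )

theorem part0 : chunks P L 16 ck0 0 11 = true := by decide +kernel

end Cfsg.Agent.CosetEnum.M83K8
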