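import Cfsg.Agent.CosetEnum.Step
import Cfsg.Agent.CosetEnum.M83.K5P0
import Cfsg.Agent.CosetEnum.M83.K6P0
import Cfsg.Agent.CosetEnum.M83.K10P0
import Cfsg.Agent.CosetEnum.M83.K15P0
import Cfsg.Agent.CosetEnum.M83.K7P0
import Cfsg.Agent.CosetEnum.M83.K8P0
import Cfsg.Agent.CosetEnum.Level
import Cfsg.Agent.CosetEnum.M83.K704R0
import Cfsg.Agent.CosetEnum.M83.K704R1
import Cfsg.Agent.CosetEnum.M83.K100R0

/-! Certificates of coset enumerations and tables (generated, owner: helper28). -/

set_option autoImplicit false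
set_option maxRecDepth 1000000

namespace Cfsg.Agent.CosetEnum.M83K5

theorem st : staticOK 5 iv (RL.map expand) subs P L = true := by decide +kernel

theorem seg : Seg P L P.m 360 :=
  (Seg.nil).snoc part0

theorem cert : Cert 5 iv RL subs 360 := fun g H hl hrels hsubs =>
  upper g H 5 iv hl (RL.map expand) subs hrels hsubs P L rfl st seg

end Cfsg.Agent.CosetEnum.M83K5
namespace Cfsg.Agent.CosetEnum.M83K6

theorem st : staticOK 6 iv (RL.map expand) subs P L = true := by decide +kernel

theorem seg : Seg P L P.m 7 :=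
  (Seg.nil).snoc part0

theorem cert : Cert 6 iv RL subs 7 := fun g H hl hrels hsubs =>
  upper g H 6 iv hl (RL.map expand) subs hrels hsubs P L rfl st seg

end Cfsg.Agent.CosetEnum.M83K6
namespace Cfsg.Agent.CosetEnum.M83K10

theorem st : staticOK 10 iv (RL.map expand) subs P L = true := by decide +kernel

theorem seg : Seg P L P.m 100 :=
  (Seg.nil).snoc part0

theorem cert : Cert 10 iv RL subs 100 := fun g H hl hrels hsubs =>
  upper g H 10 iv hl (RL.map expand) subs hrels hsubs P L rfl st seg

end Cfsg.Agent.CosetEnum.M83K10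
namespace Cfsg.Agent.CosetEnum.M83K15

theorem st : staticOK 15 iv (RL.map expand) subs P L = true := by decide +kernel

theorem seg : Seg P L P.m 352 :=
  (Seg.nil).snoc part0

theorem cert : Cert 15 iv RL subs 352 := fun g H hl hrels hsubs =>
  upper g H 15 iv hl (RL.map expand) subs hrels hsubs P L rfl st seg

end Cfsg.Agent.CosetEnum.M83K15
namespace Cfsg.Agent.CosetEnum.M83K7

theorem st : staticOK 7 iv (RL.map expand) subs P L = true := by decide +kernel

theorem seg : Seg P L P.m 2 :=
  (Seg.nil).snoc part0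

theorem cert : Cert 7 iv RL subs 2 := fun g H hl hrels hsubs =>
  upper g H 7 iv hl (RL.map expand) subs hrels hsubs P L rfl st seg

end Cfsg.Agent.CosetEnum.M83K7
namespace Cfsg.Agent.CosetEnum.M83K8

theorem st : staticOK 8 iv (RL.map expand) subs P L = true := by decide +kernel

theorem seg : Seg P L P.m 11 :=
  (Seg.nil).snoc part0

theorem cert : Cert 8 iv RL subs 11 := fun g H hl hrels hsubs =>
  upper g H 8 iv hl (RL.map expand) subs hrels hsubs P L rfl st seg

end Cfsg.Agent.CosetEnum.M83K8
namespace Cfsg.Agent.CosetEnum.M83K704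

theorem st : letsB 15 iv lets RL = true := by decide +kernel

theorem tabOK : TabOK P 15 iv lets RL := ⟨st, (Cov.of r0 rfl).trans (Cov.of r1 rfl)⟩

theorem covO : Cov (orbC P lets [] 0 P.m) 0 P.m := (Cov.of o0 rfl).trans (Cov.of o1 rfl)

end Cfsg.Agent.CosetEnum.M83K704
namespace Cfsg.Agent.CosetEnum.M83K100

theorem st : letsB 15 iv lets RL = true := by decide +kernel

theorem tabOK : TabOK P 15 iv lets RL := ⟨st, Cov.of r0 rfl⟩

theorem covO : Cov (orbC P lets [] 0 P.m) 0 P.m := Cov.of o0 rfl

end Cfsg.Agent.CosetEnum.M83K100
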