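import Cfsg.Agent.CosetEnum.Basic

/-! Certificate of a coset enumeration (generated data, owner: helper28). -/

set_option autoImplicit false
set_option maxRecDepth 1000000

namespace Cfsg.Agent.CosetEnum.M83H1

noncomputable def tab : T := .l 0 0x10000800000000007fffffffffff0000010000900000000006fffffffffff0000000000500000000009fffffffffff0000000000400000000008fffffffffff0000000000700000000003fffffffffff0000000000600000000002fffffffffff0000000000100000000005fffffffffff0000000000000000000004fffffffffff0000000000300000000000fffffffffff0000000000200000000001fffffffffff

def lw : WT := .e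

def L : LL := .cons 1 1 (.e) (.e) ( .cons 2 2 (.l [1,2,1,2,1,2,1,2,1] []) (.e) ( .nil ))

def iv : List (Nat × Nat) := []

def RL : List (List Nat × Nat) := [([1, 2], 5)]

def subs : List (List Nat) := []

noncomputable def P : Par := ⟨tab, 132, 5444517870735015415413993718908291383295, 10, icG 2 iv, lw⟩

end Cfsg.Agent.CosetEnum.M83H1
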