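import Cfsg.Agent.CosetEnum.M83.K100Data

/-! Base and transversals (generated data, owner: helper28). -/

set_option autoImplicit false
set_option maxRecDepth 1000000

namespace Cfsg.Agent.CosetEnum.M83K100D

def ls : List (Nat × List Nat) := [(0, [0x0, 0x1, 0x2, 0x7, 0x71, 0x81, 0x32, 0x37, 0x371, 0x432, 0x137, 0x5432]), (1, [0x0, 0x23, 0x282b, 0x8b, 0xb8, 0x31, 0x3b2, 0x32b3, 0x2431, 0x23b7, 0x5431]), (2, [0x0, 0x15b1, 0x14b1, 0x3b2b8, 0x34, 0xb2b83, 0x32b1, 0x43, 0x314b13, 0x3543]), (3, [0x0, 0x45, 0x54, 0x4384b273, 0x8b38b5b31, 0x381b273])]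

theorem chain : chainB M83K100.P [1, 2, 3, 4, 5, 7, 8, 11] ls [] = true := by decide +kernel

end Cfsg.Agent.CosetEnum.M83K100D
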