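import Cfsg.Agent.CosetEnum.Basic

/-! Certificate of a coset enumeration (generated data, owner: helper28). -/

set_option autoImplicit false
set_option maxRecDepth 1000000

namespace Cfsg.Agent.CosetEnum.M83K7

noncomputable def tab : T := .l 0 0x6000000000050000100000700001000009000010000080000100000800001fffffffffff00000600001000000000010000040000000000300000000002000000000010000000000100000fffffffffff

def lw : WT := .e

def L : LL := .cons 1 2 (.l [6,6,4] []) (.l [] []) ( .cons 2 1 (.l [4,7,7] []) (.l [] []) ( .cons 3 3 (.l [6,3,1,4,3,7] []) (.l [] []) ( .cons 4 4 (.l [6,5,7] []) (.l [] []) ( .cons 5 5 (.l [7,4,6] []) (.l [] []) ( .cons 6 7 (.e) (.e) ( .cons 7 6 (.l [4,2,6] []) (.e) ( .nil )))))))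

def iv : List (Nat × Nat) := [(1, 2), (6, 7)]

def RL : List (List Nat × Nat) := [([1, 1, 1], 1), ([1, 3], 3), ([1, 4], 2), ([1, 5], 2), ([3, 4], 3), ([3, 5], 2), ([4, 5], 3), ([7, 1, 6, 5, 4, 2], 1), ([7, 3, 6, 3, 4, 2, 3], 1), ([7, 4, 6, 5], 1), ([7, 5, 6, 4, 1], 1), ([6, 6, 4, 2], 1)]

def subs : List (List Nat) := [[1], [3], [4], [5]]

noncomputable def P : Par := ⟨tab, 352, 9173994463960286046443283581208347763186259956673124494950355357547691504353939232280074212440502746218495, 2, icG 7 iv, lw⟩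

end Cfsg.Agent.CosetEnum.M83K7
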