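import Cfsg.Agent.CosetEnum.Suz.T5Data

/-! Words in `J₂` (owner: helper83). -/

set_option autoImplicit false
set_option maxRecDepth 1000000

namespace Cfsg.Agent.CosetEnum.M83WJ

/-- an element of the centralizer of `a` -/
def yw : List Nat := [2, 1, 2, 3, 4, 3, 2, 1, 2, 3, 4, 3, 2, 1, 2, 1, 2, 1, 2, 3, 4, 3, 2]

def rep : Nat → List Nat → List Nat
  | 0, _ => []
  | n + 1, u => u ++ rep n u

def us : List (List Nat) := [yw ++ yw.reverse, [1] ++ yw ++ [1] ++ yw.reverse, rep 3 ([4, 5] ++ yw ++ [4] ++ yw),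
  rep 5 ([5] ++ yw), rep 3 ([3, 4] ++ yw), rep 5 [1, 2, 3]]

theorem uc0 : allR (trivB SuzT5.P us) 0 280 = true := by decide +kernel

end Cfsg.Agent.CosetEnum.M83WJ
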